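import Cfsg.Agent.H554.IFE7.Cnt
import Cfsg.Agent.H461.E2.Cent

/-!
# S5719, `E₇(q)`, `q` odd: the centralisers of the diagonal involutions (helper554)

* `diag_of` : `σ x = x`, `x ^ 2 = 1` in `chevE7.group k`, `IsFrob r e σ`: a subgroup of odd order of `fixC σ x` has
  index at least `(r ^ e) ^ 28`, if this is true for the fixed points of a frame automorphism in `MM t ⊔ TT`.
-/

set_option autoImplicit false
set_option linter.unusedSectionVars false

namespace Cfsg.Agent.H554.IFE7.Diag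

open CoxeterSystem Cfsg Cfsg.Lie Cfsg.Lie.ChevalleyDatum
open Cfsg.Agent.ChevalleyStructure Cfsg.Agent.ChevalleyStructure.Elts Cfsg.Agent.ChevalleyStructure.CoxeterGeom
  Cfsg.Agent.ChevalleyStructure.CoxeterGeomTypes Cfsg.Agent.ChevalleyStructure.NPerm
open Cfsg.Agent.Tits.Roots Cfsg.Agent.Tits.Core Cfsg.Agent.Nodes Cfsg.Agent.Nodes.Reps Cfsg.Agent.Nodes.BNOf
  Cfsg.Agent.Nodes.RGDChev Cfsg.Agent.Nodes.Bruhat Cfsg.Agent.Nodes.NormalForm
open Cfsg.Agent.KFacts.RgdField Cfsg.Agent.KFacts.RgdChevCoord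
open Cfsg.Agent.BpExc Cfsg.Agent.BpExc.TorCent Cfsg.Agent.BpExc.TorChev Cfsg.Agent.BpExc.Tow
  Cfsg.Agent.BpExc.TowChev Cfsg.Agent.BpExc.Fr Cfsg.Agent.BpExc.Pair Cfsg.Agent.BpExc.LangFr Cfsg.Agent.GpExc.Field
  Cfsg.Agent.BpExc.NInst Cfsg.Agent.BpExc.NChev Cfsg.Agent.BpExc.Asm Cfsg.Agent.BpExc.TorAll
open Cfsg.Agent.H35.ExcIdx (hpE7)

universe u v

/-- transport of an index bound along an isomorphism -/
theorem index_equiv {A : Type u} {B : Type v} [Group A] [Group B] (f : A ≃* B) {n : ℕ}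
    (h : ∀ X : Subgroup A, Odd (Nat.card X) → n ≤ X.index) {X : Subgroup B} (hX : Odd (Nat.card X)) :
    n ≤ X.index := by
  have h2 : (X.comap f.toMonoidHom).index = X.index := X.index_comap_of_surjective f.surjective
  rw [← h2]
  exact h _ (Odd.of_dvd_nat hX (X.card_comap_dvd_of_injective f.toMonoidHom f.injective))

/-- an index bound passes to an overgroup -/
theorem index_up {Y : Type u} [Group Y] {G₁ G₂ : Subgroup Y} (hle : G₁ ≤ G₂) [Finite ↥G₂] {n : ℕ}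
    (h : ∀ X : Subgroup ↥G₁, Odd (Nat.card X) → n ≤ X.index) {X : Subgroup ↥G₂} (hX : Odd (Nat.card X)) :
    n ≤ X.index := by
  set H : Subgroup ↥G₂ := G₁.subgroupOf G₂ with hH
  have e : ↥H ≃* ↥G₁ := Subgroup.subgroupOfEquivOfLe hle
  have h1 : n ≤ (X.subgroupOf H).index := by
    refine index_equiv e.symm h ?_
    have h2 : Nat.card ↥(X.subgroupOf H) ∣ Nat.card ↥X :=
      X.card_comap_dvd_of_injective H.subtype H.subtype_injective
    exact Odd.of_dvd_nat hX h2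
  refine h1.trans ?_
  have h4 := Subgroup.relIndex_le_of_le_right (H := X) (K := H) (L := ⊤) le_top
    (by rw [Subgroup.relIndex_top_right]; exact Subgroup.index_ne_zero_of_finite)
  rwa [Subgroup.relIndex_top_right] at h4

variable {k : Type u} [Field k]

/-- **The centralisers of the involutions, from the relative root data.** -/
theorem diag_of [IsAlgClosed k] (hk : LocFin k) {r e : ℕ} [Fact r.Prime] [CharP k r] (ha : HAlg r k)
    (hr2 : r ≠ 2) (he : 0 < e)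
    (hSt : ∀ (t : ↥(chevE7.group k)) (τ : MulAut ↥(chevE7.group k)) (g : (Fin 7 → ℤ) ≃+ (Fin 7 → ℤ)),
      t ∈ TT chevE7 k → IsFrob r e τ →
      Fr CoxeterMatrix.E₇.toCoxeterSystem hpE7.isCartan (TT chevE7 k) (XX chevE7 7 k) τ g → τ t = t →
      (∀ a ∈ Sx CoxeterMatrix.E₇.toCoxeterSystem hpE7.isCartan (ch hpE7) t, 0 ≤ a → 0 ≤ g a) →
      Finite ↥(fixedSubgroup τ) →
      ∀ X : Subgroup ↥((MM CoxeterMatrix.E₇.toCoxeterSystem hpE7.isCartan (XX chevE7 7 k) (ch hpE7) t ⊔ TT chevE7 k) ⊓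
        fixedSubgroup τ), Odd (Nat.card X) →
      (r ^ e) ^ (SP (Sx CoxeterMatrix.E₇.toCoxeterSystem hpE7.isCartan (ch hpE7) t)).ncard ≤ X.index)
    {σ : MulAut ↥(chevE7.group k)} {g : (Fin 7 → ℤ) ≃+ (Fin 7 → ℤ)} (hσ : IsFrob r e σ)
    (Fσ : Fr CoxeterMatrix.E₇.toCoxeterSystem hpE7.isCartan (TT chevE7 k) (XX chevE7 7 k) σ g)
    [Finite ↥(fixedSubgroup σ)] {x : ↥(chevE7.group k)} (hσx : σ x = x) (hx : x ^ 2 = 1)
    {X : Subgroup ↥(fixC σ x)} (hX : Odd (Nat.card X)) : (r ^ e) ^ 28 ≤ X.index := by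
  set cs := CoxeterMatrix.E₇.toCoxeterSystem with hcs
  obtain ⟨z, hz⟩ := exists_conj_mem_TT hpE7 r ha Nat.prime_two (Ne.symm hr2) hx
  obtain ⟨t, τ, g', ht, ht2, hτ, Fτ, hτt, hpos, hfin, ⟨E⟩⟩ :=
    exists_pair hpE7 cs (p := 2) hk he hσ Fσ hσx hx hz
  have hff : Finite ↥(fixedSubgroup τ) := hfin
  have hC : fixC τ t ≤ fixedSubgroup τ := fixC_le τ t
  have hfC : Finite ↥(fixC τ t) := Finite.of_injective _ (Subgroup.inclusion_injective hC)
  have hTc : ∀ s ∈ TT chevE7 k, ∀ t ∈ TT chevE7 k, s * t = t * s := fun s hs t ht => TT_comm hpE7 s hs t ht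
  have C := coordsL (k := k) hpE7 cs hk r
  have hle : (MM cs hpE7.isCartan (XX chevE7 7 k) (ch hpE7) t ⊔ TT chevE7 k) ⊓ fixedSubgroup τ ≤ fixC τ t := by
    rintro y ⟨hy, hyτ⟩
    refine mem_fixC.2 ⟨hyτ, ?_⟩
    have h1 : MM cs hpE7.isCartan (XX chevE7 7 k) (ch hpE7) t ≤ Subgroup.centralizer {t} := MM_le_centralizer C ht
    have h2 : TT chevE7 k ≤ Subgroup.centralizer {t} := fun s hs =>
      Subgroup.mem_centralizer_singleton_iff.2 (hTc _ hs _ ht)
    exact Subgroup.mem_centralizer_singleton_iff.1 (sup_le h1 h2 hy)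
  have h28 := Cnt.ncard_ge cs hk r hr2 ht ht2
  refine (Nat.pow_le_pow_right (pow_pos (Fact.out : r.Prime).pos e) h28).trans ?_
  exact index_equiv E (fun X hX => index_up hle (hSt t τ g' ht hτ Fτ hτt hpos hff) hX) hX

end Cfsg.Agent.H554.IFE7.Diag
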